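import Cfsg.Agent.H128.K547.M12
import Cfsg.Agent.H845.K547.Jordan

/-!
# S4547: the row of `M12`
-/

set_option autoImplicit false

namespace Cfsg.Agent.H128.K547.M12

open Cfsg Cfsg.Agent.H821.K547

universe u

/-- **The row of `M12`.** -/
theorem row {S : Type u} [Group S] (h : Spor.IsoM12 S) : Row S := by
  have := finite' h
  have := simple h
  have hna : ¬ IsMulCommutative S := by
    intro hc
    have h1 : IsMulCommutative S := hc
    obtain ⟨P⟩ : Nonempty (Sylow 2 S) := inferInstance
    have h2 : (P : Subgroup S).Normal := ⟨fun n hn g => by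
      have h3 : g * n = n * g := (isMulCommutative_iff.1 h1) g n
      rwa [h3, mul_inv_cancel_right]⟩
    have hcard : Nat.card S = 95040 := card h
    rcases h2.eq_bot_or_eq_top with h3 | h3
    · have h4 := P.card_eq_multiplicity
      rw [h3, Subgroup.card_bot, hcard] at h4
      have h5 : 2 ^ 1 ∣ 2 ^ (95040 : ℕ).factorization 2 :=
        pow_dvd_pow 2 ((Nat.prime_two.dvd_iff_one_le_factorization (by norm_num)).1 (by norm_num))
      rw [← h4] at h5
      norm_num at h5
    · have h4 := P.card_eq_multiplicity
      rw [h3, Subgroup.card_top, hcard] at h4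
      have h5 : 3 ∣ 2 ^ (95040 : ℕ).factorization 2 := by
        rw [← h4]
        norm_num
      have h6 := Nat.prime_three.dvd_of_dvd_pow h5
      norm_num at h6
  exact row_of h fun τ hd hs hi => Cfsg.Agent.H845.K547.d3_autExt hna hd hs hi

end Cfsg.Agent.H128.K547.M12
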